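import Mathlib
import Cfsg.Prelude.Def_Classical
import Cfsg.Agent.Lib.Helper18.UEDefs
import Cfsg.Agent.Lib.Helper18.UODefs
import Cfsg.Agent.Lib.Helper21.UEMEM

/-!
# Project UO (S2334, architect helper18): piece MEM3 (proof by helper37)

`uB3 H`, `lB3 H` (`H` Hermitian) and `dB3 σ g` lie in the odd model group `GJg σ (J3 m β)`.
-/

set_option autoImplicit false

namespace Cfsg.Agent.Lib.Helper18.UE

open Matrix

universe u

variable {F : Type u} [Field F] {m : ℕ}

theorem uB3_mem (σ : F →+* F) (β : F) {H : Matrix (Fin m) (Fin m) F} (hH : IsHerm σ H) :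
    uB3 H ∈ GJg σ (J3 m β) := by
  have h0 := uB_mem σ β hH
  rw [mem_GJ] at h0
  rw [mem_GJg]
  refine ⟨?_, ?_⟩
  · unfold uB3 J3
    rw [fromBlocks_transpose, fromBlocks_map, fromBlocks_multiply, fromBlocks_multiply,
      fromBlocks_inj]
    refine ⟨?_, ?_, ?_, ?_⟩
    · rw [transpose_zero, Matrix.map_zero _ (map_zero σ)]
      simp only [Matrix.mul_zero, Matrix.zero_mul, add_zero]
      exact h0.1
    · simp
    · simp
    · simp
  · unfold uB3
    rw [det_fromBlocks_zero₂₁, h0.2, det_one, mul_one]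

theorem lB3_mem (σ : F →+* F) (β : F) {H : Matrix (Fin m) (Fin m) F} (hH : IsHerm σ H) :
    lB3 H ∈ GJg σ (J3 m β) := by
  have h0 := lB_mem σ β hH
  rw [mem_GJ] at h0
  rw [mem_GJg]
  refine ⟨?_, ?_⟩
  · unfold lB3 J3
    rw [fromBlocks_transpose, fromBlocks_map, fromBlocks_multiply, fromBlocks_multiply,
      fromBlocks_inj]
    refine ⟨?_, ?_, ?_, ?_⟩
    · rw [transpose_zero, Matrix.map_zero _ (map_zero σ)]
      simp only [Matrix.mul_zero, Matrix.zero_mul, add_zero]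
      exact h0.1
    · simp
    · simp
    · simp
  · unfold lB3
    rw [det_fromBlocks_zero₂₁, h0.2, det_one, mul_one]

private theorem uomem3_dform (σ : F →+* F) (hσ : ∀ x, σ (σ x) = x) (β : F)
    (g : GL (Fin m) F) :
    (fromBlocks (g : Matrix (Fin m) (Fin m) F) 0 0
      (hconj σ ((g⁻¹ : GL (Fin m) F) : Matrix (Fin m) (Fin m) F)))ᵀ * Jb m β *
      (fromBlocks (g : Matrix (Fin m) (Fin m) F) 0 0
        (hconj σ ((g⁻¹ : GL (Fin m) F) : Matrix (Fin m) (Fin m) F))).map σ = Jb m β := by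
  have hgg : ((g⁻¹ : GL (Fin m) F) : Matrix (Fin m) (Fin m) F) *
      (g : Matrix (Fin m) (Fin m) F) = 1 := by
    rw [← Units.val_mul, inv_mul_cancel, Units.val_one]
  have h1 : (g : Matrix (Fin m) (Fin m) F)ᵀ *
      (hconj σ ((g⁻¹ : GL (Fin m) F) : Matrix (Fin m) (Fin m) F)).map σ = 1 := by
    have h2 : (hconj σ ((g⁻¹ : GL (Fin m) F) : Matrix (Fin m) (Fin m) F)).map σ =
        ((g⁻¹ : GL (Fin m) F) : Matrix (Fin m) (Fin m) F)ᵀ := by
      ext i j
      simp [hconj, hσ]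
    rw [h2, ← transpose_mul, hgg, transpose_one]
  have h3 : (hconj σ ((g⁻¹ : GL (Fin m) F) : Matrix (Fin m) (Fin m) F))ᵀ *
      (g : Matrix (Fin m) (Fin m) F).map σ = 1 := by
    unfold hconj
    rw [transpose_transpose, ← Matrix.map_mul, hgg, Matrix.map_one σ (map_zero σ) (map_one σ)]
  unfold Jb
  rw [fromBlocks_transpose, fromBlocks_map, fromBlocks_multiply, fromBlocks_multiply,
    fromBlocks_inj]
  refine ⟨?_, ?_, ?_, ?_⟩
  · simp
  · have e : ((g : Matrix (Fin m) (Fin m) F)ᵀ * 0 +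
        (0 : Matrix (Fin m) (Fin m) F)ᵀ * (-β • (1 : Matrix (Fin m) (Fin m) F))) *
        (0 : Matrix (Fin m) (Fin m) F).map σ +
        ((g : Matrix (Fin m) (Fin m) F)ᵀ * (β • (1 : Matrix (Fin m) (Fin m) F)) +
          (0 : Matrix (Fin m) (Fin m) F)ᵀ * 0) *
        (hconj σ ((g⁻¹ : GL (Fin m) F) : Matrix (Fin m) (Fin m) F)).map σ =
        β • ((g : Matrix (Fin m) (Fin m) F)ᵀ *
          (hconj σ ((g⁻¹ : GL (Fin m) F) : Matrix (Fin m) (Fin m) F)).map σ) := by
      simp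
    rw [e, h1]
  · have e : ((0 : Matrix (Fin m) (Fin m) F)ᵀ * 0 +
        (hconj σ ((g⁻¹ : GL (Fin m) F) : Matrix (Fin m) (Fin m) F))ᵀ *
          (-β • (1 : Matrix (Fin m) (Fin m) F))) *
        (g : Matrix (Fin m) (Fin m) F).map σ +
        ((0 : Matrix (Fin m) (Fin m) F)ᵀ * (β • (1 : Matrix (Fin m) (Fin m) F)) +
          (hconj σ ((g⁻¹ : GL (Fin m) F) : Matrix (Fin m) (Fin m) F))ᵀ * 0) *
        (0 : Matrix (Fin m) (Fin m) F).map σ =
        -β • ((hconj σ ((g⁻¹ : GL (Fin m) F) : Matrix (Fin m) (Fin m) F))ᵀ *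
          (g : Matrix (Fin m) (Fin m) F).map σ) := by
      simp
    rw [e, h3]
  · simp

private theorem uomem3_scal_block (σ : F →+* F) (hσ : ∀ x, σ (σ x) = x) (d : F) (hd : d ≠ 0) :
    ((σ d / d) • (1 : Matrix (Fin 1) (Fin 1) F))ᵀ * 1 *
      ((σ d / d) • (1 : Matrix (Fin 1) (Fin 1) F)).map σ = 1 := by
  have hsd : σ d ≠ 0 := fun h => hd (by
    have := congrArg σ h
    rw [hσ, map_zero] at this
    exact this)
  have hc : σ d / d * (σ (σ d) / σ d) = 1 := by
    rw [hσ]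
    field_simp
  ext i j
  have hi : i = 0 := Subsingleton.elim _ _
  have hj : j = 0 := Subsingleton.elim _ _
  subst hi; subst hj
  simp [Matrix.mul_apply, hc]

theorem dB3_mem (σ : F →+* F) (hσ : ∀ x, σ (σ x) = x) (β : F) (g : GL (Fin m) F) :
    dB3 σ g ∈ GJg σ (J3 m β) := by
  have hd : det (g : Matrix (Fin m) (Fin m) F) ≠ 0 := by
    have h := g.isUnit
    rw [Matrix.isUnit_iff_isUnit_det] at h
    exact h.ne_zero
  have hsd : σ (det (g : Matrix (Fin m) (Fin m) F)) ≠ 0 := fun h => hd (by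
    have := congrArg σ h
    rw [hσ, map_zero] at this
    exact this)
  rw [mem_GJg]
  refine ⟨?_, ?_⟩
  · unfold dB3 J3
    rw [fromBlocks_transpose, fromBlocks_map, fromBlocks_multiply, fromBlocks_multiply,
      fromBlocks_inj]
    refine ⟨?_, ?_, ?_, ?_⟩
    · rw [transpose_zero, Matrix.map_zero _ (map_zero σ)]
      simp only [Matrix.mul_zero, Matrix.zero_mul, add_zero]
      exact uomem3_dform σ hσ β g
    · simp
    · simp
    · rw [transpose_zero, Matrix.map_zero _ (map_zero σ)]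
      simp only [Matrix.mul_zero, Matrix.zero_mul, add_zero, zero_add]
      exact uomem3_scal_block σ hσ _ hd
  · unfold dB3
    rw [det_fromBlocks_zero₂₁, det_fromBlocks_zero₂₁]
    unfold hconj
    have hinv : det ((g⁻¹ : GL (Fin m) F) : Matrix (Fin m) (Fin m) F) =
        (det (g : Matrix (Fin m) (Fin m) F))⁻¹ := by
      have h1 : det ((g⁻¹ : GL (Fin m) F) : Matrix (Fin m) (Fin m) F) *
          det (g : Matrix (Fin m) (Fin m) F) = 1 := by
        rw [← det_mul, ← Units.val_mul, inv_mul_cancel, Units.val_one, det_one]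
      exact eq_inv_of_mul_eq_one_left h1
    have hs : det ((σ (det (g : Matrix (Fin m) (Fin m) F)) /
        det (g : Matrix (Fin m) (Fin m) F)) • (1 : Matrix (Fin 1) (Fin 1) F)) =
        σ (det (g : Matrix (Fin m) (Fin m) F)) / det (g : Matrix (Fin m) (Fin m) F) := by
      rw [det_smul, det_one, Fintype.card_fin, pow_one, mul_one]
    rw [det_transpose, ← RingHom.mapMatrix_apply, ← RingHom.map_det, hinv, hs, map_inv₀]
    field_simp

end Cfsg.Agent.Lib.Helper18.UE
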