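import Cfsg.Agent.Lib.Helper3.BG12Pieces

set_option autoImplicit false

/-!
# B&G 13.3(a), piece P27N (for helper3): a subgroup of order prime to `q` of a group with a normal
`q`-complement lies in the normal `q`-complement
-/

open Cfsg Cfsg.Agent.Lib.Helper32 Cfsg.Agent.Lib.Helper32.BG10 Cfsg.Agent.Lib.Helper3.BG12
  Cfsg.Agent.Lib.Helper3.BG12S

namespace Cfsg.Agent.Lib.Helper37.BG13

universe u

variable {G : Type u} [Group G] [Finite G]

omit [Finite G] in
theorem card_sup_dvd_of_le_normalizer {Y T : Subgroup G}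
    (hTY : T ≤ Subgroup.normalizer (Y : Set G)) :
    Nat.card ↥(Y ⊔ T) ∣ Nat.card Y * Nat.card T := by
  have h1 : Nat.card ↥(Y ⊔ T) = Nat.card Y * (Y.relIndex (Y ⊔ T)) := by
    rw [Subgroup.relIndex]
    rw [← Subgroup.card_mul_index (Y.subgroupOf (Y ⊔ T))]
    congr 1
    exact Nat.card_congr (Subgroup.subgroupOfEquivOfLe le_sup_left).toEquiv
  have h2 : Y.relIndex (Y ⊔ T) = Y.relIndex T := by
    have hYM : Y ≤ Subgroup.normalizer (Y : Set G) := Subgroup.le_normalizer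
    have hS : Y ⊔ T ≤ Subgroup.normalizer (Y : Set G) := sup_le hYM hTY
    rw [← Subgroup.relIndex_subgroupOf hS, ← Subgroup.relIndex_subgroupOf hTY,
      Subgroup.subgroupOf_sup hYM hTY]
    exact Subgroup.relIndex_sup_left _ _
  have h3 : Y.relIndex T ∣ Nat.card T := Subgroup.relIndex_dvd_card Y T
  rw [h1, h2]
  exact Nat.mul_dvd_mul_left _ h3

theorem le_of_sup_pgroup_of_coprime {q : ℕ} [Fact q.Prime] {N K R T : Subgroup G}
    (hKq : (Nat.card K).Coprime q)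
    (hnorm : Subgroup.normalizer (N : Set G) ≤ Subgroup.normalizer (K : Set G))
    (hR : IsPGroup q R) (hsup : K ⊔ R = N) (hTN : T ≤ N) (hT : (Nat.card T).Coprime q) :
    T ≤ K := by
  have hNn : N ≤ Subgroup.normalizer (K : Set G) := le_trans Subgroup.le_normalizer hnorm
  have hKN : K ≤ N := hsup ▸ le_sup_left
  have hRN : R ≤ N := hsup ▸ le_sup_right
  obtain ⟨a, ha⟩ := IsPGroup.iff_card.mp hR
  have h1 : Nat.card ↥N ∣ Nat.card K * q ^ a := by
    have := card_sup_dvd_of_le_normalizer (Y := K) (T := R) (le_trans hRN hNn)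
    rwa [hsup, ha] at this
  have h2 : Nat.card ↥(K ⊔ T) ∣ Nat.card K * Nat.card T :=
    card_sup_dvd_of_le_normalizer (le_trans hTN hNn)
  have h3 : (Nat.card ↥(K ⊔ T)).Coprime q :=
    Nat.Coprime.coprime_dvd_left h2 (Nat.Coprime.mul_left hKq hT)
  have h4 : Nat.card ↥(K ⊔ T) ∣ Nat.card ↥N := Subgroup.card_dvd_of_le (sup_le hKN hTN)
  obtain ⟨m, hm⟩ : Nat.card K ∣ Nat.card ↥(K ⊔ T) := Subgroup.card_dvd_of_le le_sup_left
  have hKpos : 0 < Nat.card K := Nat.card_pos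
  have h5 : m ∣ q ^ a := by
    have h6 : Nat.card K * m ∣ Nat.card K * q ^ a := hm ▸ (h4.trans h1)
    exact (Nat.mul_dvd_mul_iff_left hKpos).mp h6
  have h7 : m.Coprime q := Nat.Coprime.coprime_dvd_left (Dvd.intro_left _ hm.symm) h3
  have h8 : m = 1 := Nat.Coprime.eq_one_of_dvd (Nat.Coprime.pow_right a h7) h5
  have h9 : Nat.card ↥(K ⊔ T) ≤ Nat.card K := by rw [hm, h8, mul_one]
  have h10 : K = K ⊔ T := Subgroup.eq_of_le_of_card_ge le_sup_left h9
  rw [h10]
  exact le_sup_right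

theorem le_npc_of_coprime {q : ℕ} [Fact q.Prime] {N T : Subgroup G}
    (h : HasNormalPComplement q ↥N) (hTN : T ≤ N) (hT : (Nat.card T).Coprime q) :
    ∃ K : Subgroup G, K ≤ N ∧ (Nat.card K).Coprime q ∧
      Subgroup.normalizer (N : Set G) ≤ Subgroup.normalizer (K : Set G) ∧ T ≤ K := by
  obtain ⟨K, hKN, hKq, hnorm, hall⟩ := Cfsg.Agent.Lib.Helper3.BG12S.exists_npc_sub h
  obtain ⟨R, hR⟩ := sylSet_nonempty q N
  exact ⟨K, hKN, hKq, hnorm,
    le_of_sup_pgroup_of_coprime hKq hnorm (isPGroup_of_mem_sylSet hR) (hall R hR).1 hTN hT⟩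

end Cfsg.Agent.Lib.Helper37.BG13
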