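import Mathlib
import Cfsg.Prelude.Def_Solvable
import Cfsg.Agent.Lib.Helper84.Gagola3

set_option autoImplicit false

/-!
# S4839, piece FIN (for helper84): the Frobenius complement in the coprime case, and the `p`-core
-/

namespace Cfsg.Agent.Lib.Helper84.G39

open Cfsg Cfsg.Agent.Lib.Helper84
open scoped Pointwise

universe u

variable {G : Type u} [Group G] [Finite G]

omit [Finite G] in
theorem mem_conj_smul_iff (H : Subgroup G) (g x : G) :
    x ∈ MulAut.conj g • H ↔ g⁻¹ * x * g ∈ H := by
  rw [Subgroup.mem_pointwise_smul_iff_inv_smul_mem]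
  have e : (MulAut.conj g)⁻¹ • x = g⁻¹ * x * g := by
    rw [MulAut.smul_def, ← map_inv, MulAut.conj_apply, inv_inv]
  rw [e]

theorem pow_not_dvd_pred {p k j : ℕ} (hp : p.Prime) (hk : 0 < k) (h : p ^ j ∣ p ^ k - 1) : j = 0 := by
  by_contra hj
  have h1 : p ∣ p ^ j := dvd_pow_self p hj
  have h2 : p ∣ p ^ k - 1 := h1.trans h
  have h3 : p ∣ p ^ k := dvd_pow_self p hk.ne'
  have hpos : 1 ≤ p ^ k := Nat.one_le_pow _ _ hp.pos
  have h4 : p ∣ p ^ k - (p ^ k - 1) := Nat.dvd_sub h3 h2
  have h5 : p ^ k - (p ^ k - 1) = 1 := by omega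
  rw [h5] at h4
  exact hp.one_lt.ne' (Nat.dvd_one.mp h4)

theorem core_of_frob (p : ℕ) [hp : Fact p.Prime] (N : Subgroup G) [N.Normal] (hNp : IsPGroup p N)
    (hN1 : N ≠ ⊥) (H : Subgroup G) (hK : Cfsg.frobeniusKernel H = (N : Set G))
    (hcard : Nat.card H + 1 = Nat.card N) : N = Cfsg.pCore p G := by
  apply le_antisymm
  · exact le_sSup ⟨inferInstance, hNp⟩
  · apply sSup_le
    rintro M ⟨hMn, hMp⟩ x hx
    have hxK : x ∈ Cfsg.frobeniusKernel H := by
      by_cases hx1 : x = 1
      · exact Or.inl hx1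
      · right
        intro g hg
        rw [mem_conj_smul_iff] at hg
        obtain ⟨k, hk⟩ := IsPGroup.exists_card_eq hNp
        have hk0 : 0 < k := by
          rcases Nat.eq_zero_or_pos k with h0 | h0
          · exfalso
            rw [h0, pow_zero] at hk
            exact hN1 ((Subgroup.card_eq_one).mp hk)
          · exact h0
        obtain ⟨j, hj⟩ := (IsPGroup.iff_orderOf.mp hMp) ⟨x, hx⟩
        rw [Subgroup.orderOf_mk] at hj
        have ho : orderOf (g⁻¹ * x * g) = orderOf x := by
          have := MulEquiv.orderOf_eq (MulAut.conj g⁻¹) x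
          rw [MulAut.conj_apply, inv_inv] at this
          exact this
        have hd : orderOf (g⁻¹ * x * g) ∣ Nat.card H := by
          have := orderOf_dvd_natCard (⟨g⁻¹ * x * g, hg⟩ : H)
          rw [Subgroup.orderOf_mk] at this
          exact this
        rw [ho, hj] at hd
        have hH : Nat.card H = p ^ k - 1 := by omega
        rw [hH] at hd
        have hj0 := pow_not_dvd_pred hp.out hk0 hd
        rw [hj0, pow_zero] at hj
        exact hx1 (orderOf_eq_one_iff.mp hj)
    rw [hK] at hxK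
    exact hxK

theorem frob_of_coprime (hG : 2 < Nat.card G) (χ : IrrCharacter G)
    (hχ : Nat.card {C : ConjClasses G // ∃ g ∈ C.carrier, χ.1 g ≠ 0} = 2)
    (p : ℕ) [hp : Fact p.Prime] (N : Subgroup G) [N.Normal] (hN : ∀ g, g ∈ N ↔ χ.1 g ≠ 0)
    (hNp : IsPGroup p N) (hidx : ¬ p ∣ N.index) :
    ∃ H : Subgroup G, Cfsg.IsFrobeniusComplement H ∧ Cfsg.frobeniusKernel H = (N : Set G) ∧
      Nat.card H + 1 = Nat.card N := by
  obtain ⟨k, hk⟩ := IsPGroup.exists_card_eq hNp
  have hcop : Nat.Coprime (Nat.card N) N.index := by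
    rw [hk]
    exact Nat.Coprime.pow_left k ((Nat.Prime.coprime_iff_not_dvd hp.out).mpr hidx)
  obtain ⟨H, hH⟩ := Subgroup.exists_right_complement'_of_coprime hcop
  have hmul : Nat.card N * Nat.card H = Nat.card G := hH.card_mul_card
  have hdisj : N ⊓ H = ⊥ := hH.isCompl.inf_eq_bot
  have hprod : ∀ g : G, ∃ n ∈ N, ∃ h ∈ H, g = n * h := by
    intro g
    obtain ⟨⟨n, h⟩, hnh⟩ := hH.2 g
    exact ⟨n.1, n.2, h.1, h.2, hnh.symm⟩
  obtain ⟨x, hxN, hx1⟩ := N_ne_bot χ hχ N hN
  have hNcard := N_card χ hχ N hN x hxN hx1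
  have hcls := classSize_mul_card x
  obtain ⟨P, hP⟩ := centralizer_sylow hG χ hχ N hN p hNp x hxN hx1
  have hNP : N ≤ (P : Subgroup G) := hNp.le_sylow_of_normal P
  -- |C(x)| = |N|
  have hCN : Nat.card (Subgroup.centralizer ({x} : Set G)) = Nat.card N := by
    apply Nat.dvd_antisymm
    · have hCp := centralizer_isPGroup hG χ hχ N hN p hNp x hxN hx1
      obtain ⟨j, hj⟩ := IsPGroup.exists_card_eq hCp
      have h1 : Nat.card (Subgroup.centralizer ({x} : Set G)) ∣ Nat.card G :=
        Subgroup.card_subgroup_dvd_card _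
      rw [← Subgroup.card_mul_index N] at h1
      have h2 : Nat.Coprime (Nat.card (Subgroup.centralizer ({x} : Set G))) N.index := by
        rw [hj]
        exact Nat.Coprime.pow_left j ((Nat.Prime.coprime_iff_not_dvd hp.out).mpr hidx)
      exact h2.dvd_of_dvd_mul_right h1
    · rw [hP]
      exact Subgroup.card_dvd_of_le hNP
  rw [hCN] at hcls
  have hNpos : 0 < Nat.card N := Nat.card_pos
  have hHc : Nat.card H + 1 = Nat.card N := by
    have e : Nat.card N * Nat.card H = Nat.card N * classSize x := by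
      rw [hmul, ← hcls, Nat.mul_comm]
    have e2 := Nat.eq_of_mul_eq_mul_left hNpos e
    omega
  have hk0 : 0 < k := by
    rcases Nat.eq_zero_or_pos k with h0 | h0
    · exfalso
      rw [h0, pow_zero] at hk
      have hbot := (Subgroup.card_eq_one).mp hk
      rw [hbot, Subgroup.mem_bot] at hxN
      exact hx1 hxN
    · exact h0
  have hHk : Nat.card H = p ^ k - 1 := by omega
  -- elements of p-power order in (conjugates of) H are trivial
  have hpH : ∀ y ∈ H, ∀ j : ℕ, orderOf y = p ^ j → y = 1 := by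
    intro y hy j hj
    have hd := orderOf_dvd_natCard (⟨y, hy⟩ : H)
    rw [Subgroup.orderOf_mk, hj, hHk] at hd
    have hj0 := pow_not_dvd_pred hp.out hk0 hd
    rw [hj0, pow_zero] at hj
    exact orderOf_eq_one_iff.mp hj
  refine ⟨H, ⟨?_, ?_, ?_⟩, ?_, hHc⟩
  · -- H ≠ ⊥
    intro hb
    have h1 : Nat.card H = 1 := by rw [hb]; exact Subgroup.card_bot
    rw [h1] at hmul hHc
    omega
  · -- H ≠ ⊤
    intro ht
    have h1 : Nat.card H = Nat.card G := by rw [ht]; exact Subgroup.card_top
    rw [h1] at hmul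
    have h2 : Nat.card N = 1 := by
      have hGpos : 0 < Nat.card G := Nat.card_pos
      have : Nat.card N * Nat.card G = 1 * Nat.card G := by rw [hmul, one_mul]
      exact Nat.eq_of_mul_eq_mul_right hGpos this
    have hbot := (Subgroup.card_eq_one).mp h2
    rw [hbot, Subgroup.mem_bot] at hxN
    exact hx1 hxN
  · -- malnormality
    intro g hg
    rw [eq_bot_iff]
    intro y hy
    rw [Subgroup.mem_bot]
    obtain ⟨hyH, hyc⟩ := Subgroup.mem_inf.mp hy
    rw [mem_conj_smul_iff] at hyc
    obtain ⟨n, hn, h, hh, rfl⟩ := hprod g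
    have hn1 : n ≠ 1 := by
      intro h1
      apply hg
      rw [h1, one_mul]
      exact hh
    -- y' := n⁻¹ y n ∈ H
    have hy' : n⁻¹ * y * n ∈ H := by
      have := H.mul_mem (H.mul_mem hh hyc) (H.inv_mem hh)
      have e : h * ((n * h)⁻¹ * y * (n * h)) * h⁻¹ = n⁻¹ * y * n := by group
      rw [e] at this
      exact this
    have hmemN : y⁻¹ * (n⁻¹ * y * n) ∈ N := by
      have h1 : y⁻¹ * n⁻¹ * y⁻¹⁻¹ ∈ N := Subgroup.Normal.conj_mem inferInstance _ (N.inv_mem hn) _
      have h2 := N.mul_mem h1 hn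
      have e : y⁻¹ * n⁻¹ * y⁻¹⁻¹ * n = y⁻¹ * (n⁻¹ * y * n) := by group
      rw [e] at h2
      exact h2
    have hmemH : y⁻¹ * (n⁻¹ * y * n) ∈ H := H.mul_mem (H.inv_mem hyH) hy'
    have h1 : y⁻¹ * (n⁻¹ * y * n) = 1 := by
      have : y⁻¹ * (n⁻¹ * y * n) ∈ N ⊓ H := Subgroup.mem_inf.mpr ⟨hmemN, hmemH⟩
      rw [hdisj, Subgroup.mem_bot] at this
      exact this
    have hcomm : n * y = y * n := by
      have e : n⁻¹ * y * n = y := by
        have := congrArg (fun t => y * t) h1
        simp only [mul_inv_cancel_left, mul_one] at this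
        exact this
      calc n * y = n * (n⁻¹ * y * n) := by rw [e]
        _ = y * n := by group
    have hyC : y ∈ Subgroup.centralizer ({n} : Set G) := by
      rw [Subgroup.mem_centralizer_iff]
      intro z hz
      rw [Set.mem_singleton_iff] at hz
      rw [hz]
      exact hcomm
    have hCp := centralizer_isPGroup hG χ hχ N hN p hNp n hn hn1
    obtain ⟨j, hj⟩ := (IsPGroup.iff_orderOf.mp hCp) ⟨y, hyC⟩
    rw [Subgroup.orderOf_mk] at hj
    exact hpH y hyH j hj
  · -- the kernel
    ext y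
    constructor
    · intro hy
      rcases hy with rfl | hy
      · exact N.one_mem
      · by_contra hyN
        have hyN' : y ∉ N := hyN
        obtain ⟨n, hn, h, hh, rfl⟩ := hprod y
        have hhN : h ∉ N := by
          intro hc
          exact hyN' (N.mul_mem hn hc)
        obtain ⟨g, hg⟩ := camina_conj hG χ hχ N hN h hhN n hn
        apply hy g
        rw [mem_conj_smul_iff, ← hg]
        have e : g⁻¹ * (g * h * g⁻¹) * g = h := by group
        rw [e]
        exact hh
    · intro hy
      have hyN : y ∈ N := hy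
      by_cases hy1 : y = 1
      · exact Or.inl hy1
      · right
        intro g hg
        rw [mem_conj_smul_iff] at hg
        have hN' : g⁻¹ * y * g ∈ N := by
          have := Subgroup.Normal.conj_mem (inferInstance : N.Normal) y hyN g⁻¹
          rw [inv_inv] at this
          exact this
        have : g⁻¹ * y * g ∈ N ⊓ H := Subgroup.mem_inf.mpr ⟨hN', hg⟩
        rw [hdisj, Subgroup.mem_bot] at this
        apply hy1
        have e : y = g * (g⁻¹ * y * g) * g⁻¹ := by group
        rw [e, this, mul_one, mul_inv_cancel]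

end Cfsg.Agent.Lib.Helper84.G39
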