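import Mathlib
import Cfsg.Agent.Lib.Helper84.GADefs

/-!
# Project GA (S4840, helper84), piece SEMI (helper37)

In a group of semilinear maps of a finite field the maps `x ↦ a * x` form a normal subgroup
without elements of order `p`, containing all commutators.
-/

set_option autoImplicit false

namespace Cfsg.Agent.Lib.Helper37.GA

universe u

open Cfsg.Agent.Lib.Helper84.GA

/-- ring automorphisms of a finite field commute -/
theorem semi_aut_comm {F : Type*} [Field F] [Fintype F] (σ τ : F ≃+* F) (x : F) :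
    σ (τ x) = τ (σ x) := by
  by_cases hx : x = 0
  · subst hx
    simp
  · obtain ⟨ζ, hζ⟩ := IsCyclic.exists_generator (α := Fˣ)
    obtain ⟨S, hS⟩ : ∃ S : Fˣ →* Fˣ, S = Units.map (σ : F →* F) := ⟨_, rfl⟩
    obtain ⟨T, hT⟩ : ∃ T : Fˣ →* Fˣ, T = Units.map (τ : F →* F) := ⟨_, rfl⟩
    obtain ⟨i, hi⟩ := Subgroup.mem_zpowers_iff.mp (hζ (S ζ))
    obtain ⟨j, hj⟩ := Subgroup.mem_zpowers_iff.mp (hζ (T ζ))
    obtain ⟨k, hk⟩ := Subgroup.mem_zpowers_iff.mp (hζ (Units.mk0 x hx))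
    have h1 : S (T ζ) = T (S ζ) := by
      rw [← hi, ← hj, map_zpow, map_zpow, ← hi, ← hj, ← zpow_mul, ← zpow_mul, mul_comm]
    have h2 : S (T (Units.mk0 x hx)) = T (S (Units.mk0 x hx)) := by
      rw [← hk, map_zpow, map_zpow, map_zpow, map_zpow, h1]
    have h3 := congrArg (fun u : Fˣ => (u : F)) h2
    rw [hS, hT] at h3
    simpa using h3

theorem semi : SemiStmt.{u} := by
  intro p _ Γ _ _ V _ _ _ _ ρ hinj hsemi
  obtain ⟨F, _, _, e, hdata⟩ := hsemi
  have hone : ∀ v : V, (1 : V ≃ₗ[ZMod p] V) v = v := fun v => rfl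
  have hcancel : ∀ (g : Γ) (v : V), ρ g (ρ g⁻¹ v) = v := by
    intro g v
    rw [← LinearEquiv.mul_apply, ← map_mul, mul_inv_cancel, map_one, hone]
  obtain ⟨v₁, hv₁⟩ := exists_ne (0 : V)
  have hne : ∀ (g : Γ) (a : F) (σ : F ≃+* F), (∀ v, e (ρ g v) = a * σ (e v)) → a ≠ 0 := by
    intro g a σ h ha
    have h1 := h v₁
    rw [ha, zero_mul] at h1
    have h2 : ρ g v₁ = 0 := (AddEquiv.map_eq_zero_iff e).mp h1
    have h3 : v₁ = 0 := (LinearEquiv.map_eq_zero_iff (ρ g)).mp h2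
    exact hv₁ h3
  have hne' : ∀ (g : Γ) (a : F), (∀ v, e (ρ g v) = a * e v) → a ≠ 0 := by
    intro g a h
    exact hne g a (RingEquiv.refl F) (fun v => by rw [h v]; rfl)
  obtain ⟨C, hC⟩ : ∃ C : Subgroup Γ, ∀ g : Γ, g ∈ C ↔ ∃ a : F, ∀ v : V, e (ρ g v) = a * e v := by
    refine ⟨{ carrier := {g | ∃ a : F, ∀ v : V, e (ρ g v) = a * e v}
              one_mem' := ⟨1, fun v => by rw [map_one, hone, one_mul]⟩
              mul_mem' := ?_
              inv_mem' := ?_ }, fun g => Iff.rfl⟩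
    · rintro g h ⟨a, ha⟩ ⟨b, hb⟩
      exact ⟨a * b, fun v => by rw [map_mul, LinearEquiv.mul_apply, ha, hb, mul_assoc]⟩
    · rintro g ⟨a, ha⟩
      have ha0 : a ≠ 0 := hne' g a ha
      refine ⟨a⁻¹, fun v => ?_⟩
      have h1 := ha (ρ g⁻¹ v)
      rw [hcancel] at h1
      rw [h1, ← mul_assoc, inv_mul_cancel₀ ha0, one_mul]
  have hCn : C.Normal := by
    constructor
    intro g hg h
    obtain ⟨a, ha⟩ := (hC g).mp hg
    obtain ⟨b, τ, hb⟩ := hdata h
    rw [hC]
    refine ⟨τ a, fun v => ?_⟩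
    have h1 : ρ (h * g * h⁻¹) v = ρ h (ρ g (ρ h⁻¹ v)) := by
      rw [map_mul, map_mul, LinearEquiv.mul_apply, LinearEquiv.mul_apply]
    rw [h1, hb, ha, map_mul, ← mul_assoc, mul_comm b (τ a), mul_assoc, ← hb, hcancel]
  have hcomm : ∀ g h : Γ, g * h * g⁻¹ * h⁻¹ ∈ C := by
    intro g h
    obtain ⟨a, σ, ha⟩ := hdata g
    obtain ⟨b, τ, hb⟩ := hdata h
    have hb0 := hne h b τ hb
    have ha0 := hne g a σ ha
    have hτa0 : τ a ≠ 0 := (map_ne_zero τ).mpr ha0
    have key : ∀ v, e (ρ (g * h) v) = (a * σ b * (b * τ a)⁻¹) * e (ρ (h * g) v) := by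
      intro v
      rw [map_mul, map_mul, LinearEquiv.mul_apply, LinearEquiv.mul_apply, ha, hb, hb, ha,
        map_mul, map_mul, semi_aut_comm σ τ (e v)]
      field_simp
    have hrw : g * h * g⁻¹ * h⁻¹ = (g * h) * (h * g)⁻¹ := by group
    rw [hrw, hC]
    refine ⟨a * σ b * (b * τ a)⁻¹, fun v => ?_⟩
    rw [map_mul, LinearEquiv.mul_apply, key, hcancel]
  have hp0 : (p : F) = 0 := by
    have h1 : p • (e.symm 1) = 0 := by
      rw [← Nat.cast_smul_eq_nsmul (ZMod p), ZMod.natCast_self, zero_smul]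
    have h2 := congrArg e h1
    rw [map_nsmul, AddEquiv.apply_symm_apply, map_zero, nsmul_one] at h2
    exact h2
  have hchar : CharP F p := (CharP.charP_iff_prime_eq_zero (Fact.out : p.Prime)).mpr hp0
  have hpow : ∀ (g : Γ) (a : F), (∀ v, e (ρ g v) = a * e v) →
      ∀ (k : ℕ) (v : V), e (ρ (g ^ k) v) = a ^ k * e v := by
    intro g a ha k
    induction k with
    | zero =>
      intro v
      rw [pow_zero, map_one, hone, pow_zero, one_mul]
    | succ k ih =>
      intro v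
      rw [pow_succ, map_mul, LinearEquiv.mul_apply, ih, ha, pow_succ, mul_assoc]
  have hnop : ∀ g ∈ C, g ^ p = 1 → g = 1 := by
    intro g hg hgp
    obtain ⟨a, ha⟩ := (hC g).mp hg
    have h1 := hpow g a ha p (e.symm 1)
    rw [hgp, map_one, hone, AddEquiv.apply_symm_apply, mul_one] at h1
    have h2 : (a - 1) ^ p = 0 := by rw [sub_pow_char, ← h1, one_pow, sub_self]
    have h3 : a = 1 :=
      sub_eq_zero.mp ((pow_eq_zero_iff (Fact.out : p.Prime).ne_zero).mp h2)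
    apply hinj
    apply LinearEquiv.ext
    intro v
    apply e.injective
    rw [ha, h3, one_mul, map_one, hone]
  exact ⟨C, hCn, hnop, hcomm⟩

end Cfsg.Agent.Lib.Helper37.GA
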