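import Mathlib
import Cfsg.Agent.Lib.Helper37.J3Fin
import Cfsg.Agent.Lib.Helper21.PslT1
import Cfsg.Agent.Lib.Helper21.PslT2
import Cfsg.Agent.Lib.Helper91.SimpleGen

/-!
# J3: transfer of `GoodSyl` from `3.J3` to any group isomorphic to `J3` (helper37 for helper89, S5322)

Given a subgroup `U` of order `128` of `3.J3 = threeJ3 F w` satisfying helper91's `GoodSyl 2`
(inside `threeJ3`), the `2`-fusion system of any group `G ≃* J3 F w` on a Sylow `2`-subgroup is
simple.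
-/

set_option autoImplicit false

namespace Cfsg.Agent.Lib.Helper37.J3Fus

open Cfsg.Agent.Lib.Helper91.SimpleGen

theorem j3fus_fact2 : (150698880 : ℕ).factorization 2 = 7 := by
  have h : (150698880 : ℕ) = 2 ^ 7 * 1177335 := by norm_num
  rw [h, Nat.factorization_mul (by norm_num) (by norm_num),
    Nat.Prime.factorization_pow Nat.prime_two]
  simp [Nat.factorization_eq_zero_of_not_dvd (show ¬ 2 ∣ 1177335 by norm_num)]

theorem j3_fusion_simple_of_good {F : Type} [Field F] [Fintype F] (w : F)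
    (hF : Fintype.card F = 4) (hw : w ^ 2 + w + 1 = 0)
    (U : Subgroup (GL Cfsg.Spor.F9 F)) (hU : U ≤ Cfsg.Spor.threeJ3 F w)
    (hcard : Nat.card U = 128)
    (hgood : Cfsg.Agent.Lib.Helper91.SimpleGen.GoodSyl 2
      (U.subgroupOf (Cfsg.Spor.threeJ3 F w)))
    {G : Type*} [Group G] [Finite G] (e : G ≃* Cfsg.Spor.J3 F w) (S : Sylow 2 G) :
    (Cfsg.groupFusionSystem (S : Subgroup G)).IsSimple 2 := by
  classical
  have : Fact (Nat.Prime 2) := ⟨Nat.prime_two⟩
  have h2 := Cfsg.Agent.Lib.Helper37.J3.two_eq_zero_of_card hF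
  have hω' := Cfsg.Agent.Lib.Helper37.J3.om_sq_of h2 hw
  have hF4 := Cfsg.Agent.Lib.Helper37.J3.four_elems hF h2 hω'
  have hc3 := Cfsg.Agent.Lib.Helper37.J3.card_center h2 hω' hF4
  have hcT := Cfsg.Agent.Lib.Helper37.J3.card_threeJ3 h2 hω'
  have : Finite ↥(Cfsg.Spor.threeJ3 F w) := inferInstance
  have : Finite (Cfsg.Spor.J3 F w) := inferInstance
  have hU'card : Nat.card (U.subgroupOf (Cfsg.Spor.threeJ3 F w)) = 128 := by
    rw [← hcard]; exact Nat.card_congr (Subgroup.subgroupOfEquivOfLe hU).toEquiv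
  have hU'p : IsPGroup 2 (U.subgroupOf (Cfsg.Spor.threeJ3 F w)) :=
    IsPGroup.of_card (n := 7) (by rw [hU'card]; norm_num)
  have hU'syl : Nat.card (U.subgroupOf (Cfsg.Spor.threeJ3 F w)) =
      2 ^ (Nat.card ↥(Cfsg.Spor.threeJ3 F w)).factorization 2 := by
    rw [hU'card, hcT, j3fus_fact2]; norm_num
  have hzfree : ∀ z ∈ Subgroup.center ↥(Cfsg.Spor.threeJ3 F w), ∀ k : ℕ,
      z ^ 2 ^ k = 1 → z = 1 := by
    intro z hz k hk
    have h3 : (⟨z, hz⟩ : Subgroup.center ↥(Cfsg.Spor.threeJ3 F w)) ^ 3 = 1 := by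
      have h := pow_card_eq_one' (G := Subgroup.center ↥(Cfsg.Spor.threeJ3 F w)) (x := ⟨z, hz⟩)
      rwa [hc3] at h
    have h3' : z ^ 3 = 1 := congrArg Subtype.val h3
    have hco : Nat.Coprime (2 ^ k) 3 := Nat.Coprime.pow_left k (by norm_num)
    have ho1 : orderOf z ∣ 2 ^ k := orderOf_dvd_of_pow_eq_one hk
    have ho2 : orderOf z ∣ 3 := orderOf_dvd_of_pow_eq_one h3'
    have : orderOf z = 1 := Nat.eq_one_of_dvd_coprimes hco ho1 ho2
    exact orderOf_eq_one_iff.mp this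
  have hq := Cfsg.Agent.Lib.Helper21.PslT2.goodSyl_quot 2
    (Subgroup.center ↥(Cfsg.Spor.threeJ3 F w)) le_rfl hzfree
    (U.subgroupOf (Cfsg.Spor.threeJ3 F w)) hU'p hgood
  have hsurj : Function.Surjective e.symm.toMonoidHom := e.symm.surjective
  have hg₁ := Cfsg.Agent.Lib.Helper21.PslT1.goodSyl_map_equiv e.symm 2 _ hq
  obtain ⟨g, hg'⟩ := MulAction.exists_smul_eq G
    ((((Sylow.ofCard _ hU'syl : Sylow 2 ↥(Cfsg.Spor.threeJ3 F w)).mapSurjective
      (QuotientGroup.mk'_surjective (Subgroup.center ↥(Cfsg.Spor.threeJ3 F w)))).mapSurjective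
        hsurj : Sylow 2 G)) S
  have hSe : (S : Subgroup G) =
      ((((U.subgroupOf (Cfsg.Spor.threeJ3 F w)).map
        (QuotientGroup.mk' (Subgroup.center ↥(Cfsg.Spor.threeJ3 F w)))).map
          e.symm.toMonoidHom).map (MulAut.conj g).toMonoidHom) := by
    rw [← hg', Sylow.coe_subgroup_smul, Sylow.coe_mapSurjective, Sylow.coe_mapSurjective,
      Sylow.coe_ofCard]
    rfl
  have hfin := Cfsg.Agent.Lib.Helper21.PslT1.goodSyl_map_equiv (MulAut.conj g) 2 _ hg₁
  rw [← hSe] at hfin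
  exact simple_of_goodSyl S hfin

end Cfsg.Agent.Lib.Helper37.J3Fus
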