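import Cfsg.Prelude.Def_JComponents
import Mathlib
import Cfsg.Agent.Lib.Helper78.JcDefs

set_option autoImplicit false

/-!
# S2946 (project JC of helper78), piece SY
-/

namespace Cfsg.Agent.Lib.Helper37.Jc

open scoped commutatorElement

variable {G : Type*} [Group G]

theorem sy_card_eq {H L : Subgroup G} (h : H ≤ L) : Nat.card L = Nat.card H * H.relIndex L := by
  rw [Subgroup.relIndex, ← Subgroup.card_mul_index (H.subgroupOf L)]
  congr 1
  exact Nat.card_congr (Subgroup.subgroupOfEquivOfLe h).toEquiv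

theorem sy_card_sup (Y T : Subgroup G) (hTY : T ≤ Subgroup.normalizer (Y : Set G)) :
    Nat.card ↥(Y ⊔ T) = Nat.card Y * Y.relIndex T := by
  have h2 : Y.relIndex (Y ⊔ T) = Y.relIndex T := by
    have hYM : Y ≤ Subgroup.normalizer (Y : Set G) := Subgroup.le_normalizer
    have hS : Y ⊔ T ≤ Subgroup.normalizer (Y : Set G) := sup_le hYM hTY
    rw [← Subgroup.relIndex_subgroupOf hS, ← Subgroup.relIndex_subgroupOf hTY,
      Subgroup.subgroupOf_sup hYM hTY]
    exact Subgroup.relIndex_sup_left _ _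
  rw [sy_card_eq (le_sup_left : Y ≤ Y ⊔ T), h2]

theorem sy [Finite G] (K J Q : Subgroup G) (hJK : J ≤ Subgroup.normalizer (K : Set G))
    (hQK : Q ≤ K) (hKQ : K ≤ Subgroup.normalizer (Q : Set G))
    (hJQ : J ≤ Subgroup.normalizer (Q : Set G)) (hQ2 : IsPGroup 2 ↥Q) (hJ2 : IsPGroup 2 ↥J)
    (h3 : Q.relIndex K = 3) (hKJ : K ⊓ J ≤ Q) : Cfsg.IsSylowTwoIn (Q ⊔ J) (K ⊔ J) := by
  refine ⟨sup_le_sup_right hQK J, IsPGroup.to_sup_of_normal_left' hQ2 hJ2 hJQ, ?_⟩
  have e1 := sy_card_sup K J hJK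
  have e2 := sy_card_sup Q J hJQ
  have e3 : K.relIndex J = Q.relIndex J := by
    rw [← Subgroup.inf_relIndex_right K J, ← Subgroup.inf_relIndex_right Q J]
    congr 1
    exact le_antisymm (le_inf hKJ inf_le_right) (inf_le_inf_right J hQK)
  have e4 := sy_card_eq hQK
  have e5 := sy_card_eq (sup_le_sup_right hQK J)
  rw [h3] at e4
  have hpos : 0 < Nat.card ↥(Q ⊔ J) := Nat.card_pos
  have h : (Q ⊔ J).relIndex (K ⊔ J) = 3 := by
    have h' : Nat.card ↥(Q ⊔ J) * (Q ⊔ J).relIndex (K ⊔ J) = Nat.card ↥(Q ⊔ J) * 3 := by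
      rw [← e5, e1, e4, e3, e2]
      ring
    exact Nat.eq_of_mul_eq_mul_left hpos h'
  rw [h]
  exact ⟨1, rfl⟩

end Cfsg.Agent.Lib.Helper37.Jc
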