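import Mathlib
import Cfsg.Agent.Lib.Helper47.S76Defs

/-!
# S76 project (helper47, S5976), piece DERP (helper37)

A symplectic transvection `Y = 1 + E_{inl 0, inr 0}` of `Sp_2d(F)`, `F` of characteristic `p`:
`Y ^ p = 1`, `Y` is not scalar, and a matrix `T` commuting with `Y` with `T * T = δ • 1`
forces `δ` to be a square.
-/

set_option autoImplicit false

namespace Cfsg.Agent.Lib.Helper37.S76DERP

open Matrix Polynomial Cfsg.Agent.Lib.Helper47 Cfsg.Agent.Lib.Helper47.S76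

universe u

variable {F : Type u} [Field F]

theorem der_p {p : ℕ} [Fact p.Prime] [CharP F p] (d : ℕ) (hd : 1 ≤ d) :
    ∃ Y : Matrix (Fin d ⊕ Fin d) (Fin d ⊕ Fin d) F, Y ∈ Matrix.symplecticGroup (Fin d) F ∧
      Y ^ p = 1 ∧ (∀ z : F, Y ≠ z • (1 : Matrix (Fin d ⊕ Fin d) (Fin d ⊕ Fin d) F)) ∧
      ∀ (T : Matrix (Fin d ⊕ Fin d) (Fin d ⊕ Fin d) F) (δ : F), T * Y = Y * T →
        T * T = δ • (1 : Matrix (Fin d ⊕ Fin d) (Fin d ⊕ Fin d) F) → ∃ c : F, c * c = δ := by
  classical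
  obtain ⟨i0, hi0⟩ : ∃ i0 : Fin d, i0 = ⟨0, hd⟩ := ⟨_, rfl⟩
  obtain ⟨B, hB⟩ : ∃ B : Matrix (Fin d) (Fin d) F, B = Matrix.single i0 i0 1 := ⟨_, rfl⟩
  obtain ⟨N, hN⟩ : ∃ N : Matrix (Fin d ⊕ Fin d) (Fin d ⊕ Fin d) F,
      N = Matrix.single (Sum.inl i0) (Sum.inr i0) 1 := ⟨_, rfl⟩
  have hNB : N = Matrix.fromBlocks 0 B 0 0 := by
    rw [hN, hB]
    ext (a | a) (b | b) <;> simp [Matrix.single_apply]
  have hBt : Bᵀ = B := by rw [hB, Matrix.transpose_single]
  have h1 : (1 : Matrix (Fin d ⊕ Fin d) (Fin d ⊕ Fin d) F) = Matrix.fromBlocks 1 0 0 1 :=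
    Matrix.fromBlocks_one.symm
  have hY : (1 + N) = Matrix.fromBlocks 1 B 0 1 := by
    rw [hNB, h1, Matrix.fromBlocks_add]; simp
  have hNN : N * N = 0 := by
    rw [hNB, Matrix.fromBlocks_multiply]; simp
  have hpow : ∀ k : ℕ, (1 + N) ^ k = 1 + (k : F) • N := by
    intro k
    induction k with
    | zero => simp
    | succ k ih =>
      rw [pow_succ, ih, add_mul, mul_add, mul_add, one_mul, mul_one, one_mul, smul_mul_assoc, hNN,
        smul_zero, add_zero, Nat.cast_succ, add_smul, one_smul]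
      abel
  refine ⟨1 + N, ?_, ?_, ?_, ?_⟩
  · rw [SymplecticGroup.mem_iff, hY, Matrix.J, Matrix.fromBlocks_transpose,
      Matrix.fromBlocks_multiply, Matrix.fromBlocks_multiply]
    simp [hBt]
  · rw [hpow, CharP.cast_eq_zero F p, zero_smul, add_zero]
  · intro z hz
    have h := congrFun (congrFun hz (Sum.inl i0)) (Sum.inr i0)
    rw [hN] at h
    simp at h
  · intro T δ hTY hTT
    have hTN : T * N = N * T := by
      rw [mul_add, add_mul, mul_one, one_mul] at hTY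
      exact add_left_cancel hTY
    have hcol : ∀ a, a ≠ Sum.inl i0 → T a (Sum.inl i0) = 0 := by
      intro a ha
      have h := congrFun (congrFun hTN a) (Sum.inr i0)
      rw [hN] at h
      rw [Matrix.mul_single_apply_same, Matrix.single_mul_apply_of_ne _ _ _ _ _ ha T] at h
      simpa using h
    refine ⟨T (Sum.inl i0) (Sum.inl i0), ?_⟩
    have h := congrFun (congrFun hTT (Sum.inl i0)) (Sum.inl i0)
    rw [Matrix.mul_apply, Finset.sum_eq_single (Sum.inl i0)] at h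
    · simpa using h
    · intro b _ hb
      rw [hcol b hb, mul_zero]
    · simp

end Cfsg.Agent.Lib.Helper37.S76DERP
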