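import Mathlib

/-!
# Tits group project (helper99, S1074), piece T2-CARD (helper37)

The order of a subgroup from a transversal separated by an action.
-/

set_option autoImplicit false

namespace Cfsg.Agent.Lib.Helper99.T2

open scoped commutatorElement

theorem t2_card_of_transversal {Γ : Type*} [Group Γ] {Ω : Type*} [MulAction Γ Ω]
    (S K : Subgroup Γ) (n : ℕ) (u : Fin n → Γ) (ω : Ω) (hK : K ≤ S) (hu : ∀ i, u i ∈ S)
    (hdec : ∀ g ∈ S, ∃ i, ∃ k ∈ K, g = u i * k) (hfix : ∀ k ∈ K, k • ω = ω)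
    (hinj : ∀ i j, u i • ω = u j • ω → i = j) : Nat.card S = n * Nat.card K := by
  have hbij : Function.Bijective
      (fun p : Fin n × ↥K => (⟨u p.1 * p.2.1, S.mul_mem (hu p.1) (hK p.2.2)⟩ : ↥S)) := by
    constructor
    · rintro ⟨i, k⟩ ⟨j, k'⟩ h
      have h1 : u i * k.1 = u j * k'.1 := congrArg Subtype.val h
      have h2 : u i • ω = u j • ω := by
        have h3 : (u i * k.1) • ω = (u j * k'.1) • ω := by rw [h1]
        rw [mul_smul, mul_smul, hfix k.1 k.2, hfix k'.1 k'.2] at h3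
        exact h3
      have hij : i = j := hinj i j h2
      subst hij
      have h4 : k.1 = k'.1 := mul_left_cancel h1
      rw [Prod.mk.injEq]
      exact ⟨rfl, Subtype.ext h4⟩
    · rintro ⟨g, hg⟩
      obtain ⟨i, k, hk, rfl⟩ := hdec g hg
      exact ⟨(i, ⟨k, hk⟩), rfl⟩
  rw [← Nat.card_congr (Equiv.ofBijective _ hbij), Nat.card_prod, Nat.card_fin]

end Cfsg.Agent.Lib.Helper99.T2
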