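import Mathlib
import Cfsg.Prelude.Def_Classical

set_option autoImplicit false
set_option maxHeartbeats 400000

/-!
# S3663, piece U34-B (for helper7)

Transfer of element-order facts about `SU(3,4)` from one field with 16 elements (given by
Gram-matrix conditions on `3 × 3` matrices) to `Cfsg.PSU 3 F 4` for an arbitrary field `F` with 16
elements.
-/

namespace Cfsg.Agent.Lib.Helper37.U34B

open scoped Matrix

/-- The Gram condition: the columns of `M` are orthonormal for `Σ u_k v_k ^ 4`. -/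
abbrev Gram {K : Type*} [Field K] (M : Matrix (Fin 3) (Fin 3) K) : Prop :=
  ∀ i j, ∑ k, M k i * (M k j) ^ 4 = if i = j then 1 else 0

theorem charP_two_of_card {K : Type*} [Field K] [Fintype K] (h : Fintype.card K = 16) :
    CharP K 2 := by
  obtain ⟨p, hp⟩ := CharP.exists K
  obtain ⟨n, hpp, hn⟩ := FiniteField.card K p
  have h1 : p ∣ 2 ^ 4 := by
    rw [show (2 : ℕ) ^ 4 = 16 by norm_num, ← h, hn]
    exact dvd_pow_self p n.ne_zero
  have h2 : p = 2 := (Nat.prime_dvd_prime_iff_eq hpp Nat.prime_two).mp (hpp.dvd_of_dvd_pow h1)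
  subst h2
  exact hp

theorem slToMat_apply {K : Type*} [Field K] (A : Matrix.SpecialLinearGroup (Fin 3) K) :
    Cfsg.slToMat 3 K A = (A : Matrix (Fin 3) (Fin 3) K) := rfl

theorem herm_mulVec {K : Type*} [Field K] [CharP K 2] (M : Matrix (Fin 3) (Fin 3) K) (hM : Gram M)
    (u v : Fin 3 → K) : Cfsg.hermForm 3 K 4 (M *ᵥ u) (M *ᵥ v) = Cfsg.hermForm 3 K 4 u v := by
  have : Fact (Nat.Prime 2) := ⟨Nat.prime_two⟩
  unfold Cfsg.hermForm
  have h4 : ∀ k, ((M *ᵥ v) k) ^ 4 = ∑ j, (M k j) ^ 4 * (v j) ^ 4 := by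
    intro k
    have e4 : (4 : ℕ) = 2 ^ 2 := by norm_num
    rw [e4]
    show (∑ j, M k j * v j) ^ 2 ^ 2 = _
    rw [sum_pow_char_pow]
    simp only [mul_pow]
  have hu : ∀ k, (M *ᵥ u) k = ∑ i, M k i * u i := fun k => rfl
  simp only [h4, hu, Finset.sum_mul, Finset.mul_sum]
  rw [Finset.sum_comm]
  refine Finset.sum_congr rfl (fun j _ => ?_)
  rw [Finset.sum_comm]
  have h3 : ∀ i, ∑ k, M k i * u i * (M k j ^ 4 * v j ^ 4)
      = u i * v j ^ 4 * (if i = j then 1 else 0) := by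
    intro i
    rw [← hM i j, Finset.mul_sum]
    refine Finset.sum_congr rfl (fun k _ => ?_)
    ring
  simp only [h3]
  simp

theorem gram_of_mem {K : Type*} [Field K] (A : Matrix.SpecialLinearGroup (Fin 3) K)
    (hA : A ∈ Cfsg.SU 3 K 4) : Gram (A : Matrix (Fin 3) (Fin 3) K) := by
  intro i j
  have h : ∀ u v, Cfsg.hermForm 3 K 4 (Cfsg.slToMat 3 K A *ᵥ u) (Cfsg.slToMat 3 K A *ᵥ v)
      = Cfsg.hermForm 3 K 4 u v := hA
  have h' := h (Pi.single i 1) (Pi.single j 1)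
  rw [slToMat_apply, Matrix.mulVec_single_one, Matrix.mulVec_single_one] at h'
  unfold Cfsg.hermForm at h'
  simp only [Matrix.col_apply] at h'
  rw [h']
  rcases eq_or_ne i j with rfl | hij
  · simp [Pi.single_apply]
  · simp [Pi.single_apply, hij, hij.symm]

theorem mem_of_gram {K : Type*} [Field K] [CharP K 2] (A : Matrix.SpecialLinearGroup (Fin 3) K)
    (hA : Gram (A : Matrix (Fin 3) (Fin 3) K)) : A ∈ Cfsg.SU 3 K 4 := by
  show ∀ u v, Cfsg.hermForm 3 K 4 (Cfsg.slToMat 3 K A *ᵥ u) (Cfsg.slToMat 3 K A *ᵥ v)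
      = Cfsg.hermForm 3 K 4 u v
  intro u v
  rw [slToMat_apply]
  exact herm_mulVec _ hA u v

theorem gram_map_iff {K K' : Type*} [Field K] [Field K'] (f : K →+* K')
    (hf : Function.Injective f) (M : Matrix (Fin 3) (Fin 3) K) :
    Gram (M.map f) ↔ Gram M := by
  have key : ∀ i j, f (∑ k, M k i * (M k j) ^ 4) = ∑ k, (M.map f) k i * ((M.map f) k j) ^ 4 := by
    intro i j
    simp [map_sum]
  have key2 : ∀ i j : Fin 3, f (if i = j then 1 else 0) = if i = j then 1 else 0 := by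
    intro i j
    split_ifs <;> simp
  constructor
  · intro h i j
    apply hf
    rw [key, key2]
    exact h i j
  · intro h i j
    rw [← key, h i j, key2]

/-- Powers: if the image of the matrix of `g ∈ SU 3 F 4` under a ring isomorphism has `k`-th power
`1`, then `g ^ k = 1`. -/
theorem su_pow_eq_one {F F' : Type*} [Field F] [Field F'] (σ : F ≃+* F') (g : Cfsg.SU 3 F 4) (k : ℕ)
    (h : (σ.mapMatrix (m := Fin 3)
      ((g : Matrix.SpecialLinearGroup (Fin 3) F) : Matrix (Fin 3) (Fin 3) F)) ^ k = 1) :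
    g ^ k = 1 := by
  apply Subtype.ext
  apply Subtype.ext
  rw [SubgroupClass.coe_pow, Matrix.SpecialLinearGroup.coe_pow]
  rw [← map_pow] at h
  exact (map_eq_one_iff (σ.mapMatrix (m := Fin 3)) (σ.mapMatrix (m := Fin 3)).injective).mp h

theorem exists_su_pair {F : Type*} [Field F] [CharP F 2] {F' : Type*} [Field F'] (σ : F ≃+* F')
    (M' N' : Matrix (Fin 3) (Fin 3) F') (hM' : Gram M') (hdM : M'.det = 1) (hN' : Gram N')
    (hdN : N'.det = 1) :
    ∃ g : Cfsg.SU 3 F 4, (∀ k : ℕ, M' ^ k = 1 → g ^ k = 1) ∧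
      (∀ k : ℕ, M' ^ k * N' ≠ N' * M' ^ k → g ^ k ∉ Subgroup.center (Cfsg.SU 3 F 4)) := by
  obtain ⟨τ, hτ⟩ : ∃ τ : Matrix (Fin 3) (Fin 3) F ≃+* Matrix (Fin 3) (Fin 3) F',
      ∀ M, τ M = M.map σ := ⟨σ.mapMatrix, fun M => rfl⟩
  have hpre : ∀ X' : Matrix (Fin 3) (Fin 3) F', Gram X' → X'.det = 1 →
      Gram (τ.symm X') ∧ (τ.symm X').det = 1 := by
    intro X' hX' hdX
    have e : (τ.symm X').map σ = X' := by rw [← hτ, RingEquiv.apply_symm_apply]
    constructor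
    · rw [← gram_map_iff (σ : F →+* F') σ.injective]
      have e' : (τ.symm X').map (σ : F →+* F') = X' := e
      rw [e']
      exact hX'
    · apply σ.injective
      have h1 : σ (τ.symm X').det = ((τ.symm X').map σ).det := by
        have := RingHom.map_det (σ : F →+* F') (τ.symm X')
        exact this
      rw [h1, e, hdX, map_one]
  obtain ⟨hMg, hMd⟩ := hpre M' hM' hdM
  obtain ⟨hNg, hNd⟩ := hpre N' hN' hdN
  obtain ⟨A, hA⟩ : ∃ A : Matrix.SpecialLinearGroup (Fin 3) F,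
      (A : Matrix (Fin 3) (Fin 3) F) = τ.symm M' := ⟨⟨_, hMd⟩, rfl⟩
  obtain ⟨B, hB⟩ : ∃ B : Matrix.SpecialLinearGroup (Fin 3) F,
      (B : Matrix (Fin 3) (Fin 3) F) = τ.symm N' := ⟨⟨_, hNd⟩, rfl⟩
  rw [← hA] at hMg
  rw [← hB] at hNg
  refine ⟨⟨A, mem_of_gram A hMg⟩, ?_, ?_⟩
  · intro k hk
    apply su_pow_eq_one σ
    show (A : Matrix (Fin 3) (Fin 3) F).map σ ^ k = 1
    rw [hA, ← hτ, RingEquiv.apply_symm_apply]
    exact hk
  · intro k hk hcen
    apply hk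
    have h := Subgroup.mem_center_iff.mp hcen ⟨B, mem_of_gram B hNg⟩
    have h' : (B : Matrix (Fin 3) (Fin 3) F) * (A : Matrix (Fin 3) (Fin 3) F) ^ k
        = (A : Matrix (Fin 3) (Fin 3) F) ^ k * (B : Matrix (Fin 3) (Fin 3) F) := by
      have h2 := congrArg (fun x : Cfsg.SU 3 F 4 =>
        ((x : Matrix.SpecialLinearGroup (Fin 3) F) : Matrix (Fin 3) (Fin 3) F)) h
      simpa only [Subgroup.coe_mul, SubgroupClass.coe_pow, Matrix.SpecialLinearGroup.coe_mul,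
        Matrix.SpecialLinearGroup.coe_pow] using h2
    have h3 := congrArg τ h'
    rw [hA, hB, map_mul, map_mul, map_pow, RingEquiv.apply_symm_apply,
      RingEquiv.apply_symm_apply] at h3
    exact h3.symm

theorem orderOf_eq_ten {G : Type*} [Group G] (x : G) (h10 : x ^ 10 = 1) (h2 : x ^ 2 ≠ 1)
    (h5 : x ^ 5 ≠ 1) : orderOf x = 10 := by
  refine orderOf_eq_of_pow_and_pow_div_prime (by norm_num) h10 ?_
  intro p hp hdvd
  have h : p ∣ 2 * 5 := hdvd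
  rcases (Nat.Prime.dvd_mul hp).mp h with h | h
  · have e := (Nat.prime_dvd_prime_iff_eq hp Nat.prime_two).mp h
    subst e
    exact h5
  · have e := (Nat.prime_dvd_prime_iff_eq hp Nat.prime_five).mp h
    subst e
    exact h2

theorem orderOf_eq_fifteen {G : Type*} [Group G] (x : G) (h15 : x ^ 15 = 1) (h3 : x ^ 3 ≠ 1)
    (h5 : x ^ 5 ≠ 1) : orderOf x = 15 := by
  refine orderOf_eq_of_pow_and_pow_div_prime (by norm_num) h15 ?_
  intro p hp hdvd
  have h : p ∣ 3 * 5 := hdvd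
  rcases (Nat.Prime.dvd_mul hp).mp h with h | h
  · have e := (Nat.prime_dvd_prime_iff_eq hp Nat.prime_three).mp h
    subst e
    exact h5
  · have e := (Nat.prime_dvd_prime_iff_eq hp Nat.prime_five).mp h
    subst e
    exact h3

theorem psu34_of_concrete {F : Type*} [Field F] [Fintype F] (hF : Fintype.card F = 16)
    (F' : Type) [Field F'] [Fintype F'] (hF' : Fintype.card F' = 16)
    (h1 : ∀ M : Matrix (Fin 3) (Fin 3) F',
        (∀ i j, ∑ k, M k i * (M k j) ^ 4 = if i = j then 1 else 0) → M.det = 1 →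
        M ^ 4 = 1 ∨ M ^ 10 = 1 ∨ M ^ 13 = 1 ∨ M ^ 15 = 1)
    (h10 : ∃ M N : Matrix (Fin 3) (Fin 3) F',
        (∀ i j, ∑ k, M k i * (M k j) ^ 4 = if i = j then 1 else 0) ∧ M.det = 1 ∧
        (∀ i j, ∑ k, N k i * (N k j) ^ 4 = if i = j then 1 else 0) ∧ N.det = 1 ∧
        M ^ 10 = 1 ∧ M ^ 2 * N ≠ N * M ^ 2 ∧ M ^ 5 * N ≠ N * M ^ 5)
    (h15 : ∃ M N : Matrix (Fin 3) (Fin 3) F',
        (∀ i j, ∑ k, M k i * (M k j) ^ 4 = if i = j then 1 else 0) ∧ M.det = 1 ∧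
        (∀ i j, ∑ k, N k i * (N k j) ^ 4 = if i = j then 1 else 0) ∧ N.det = 1 ∧
        M ^ 15 = 1 ∧ M ^ 3 * N ≠ N * M ^ 3 ∧ M ^ 5 * N ≠ N * M ^ 5)
    (h13 : ∃ M N : Matrix (Fin 3) (Fin 3) F',
        (∀ i j, ∑ k, M k i * (M k j) ^ 4 = if i = j then 1 else 0) ∧ M.det = 1 ∧
        (∀ i j, ∑ k, N k i * (N k j) ^ 4 = if i = j then 1 else 0) ∧ N.det = 1 ∧
        M ^ 13 = 1 ∧ M * N ≠ N * M) :
    (∀ g : Cfsg.PSU 3 F 4, g ^ 4 = 1 ∨ g ^ 10 = 1 ∨ g ^ 13 = 1 ∨ g ^ 15 = 1) ∧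
    (∃ g : Cfsg.PSU 3 F 4, orderOf g = 10) ∧ (∃ g : Cfsg.PSU 3 F 4, orderOf g = 15) ∧
    (∃ g : Cfsg.PSU 3 F 4, orderOf g = 13) := by
  have hchar : CharP F 2 := charP_two_of_card hF
  obtain ⟨σ⟩ : Nonempty (F ≃+* F') := ⟨FiniteField.ringEquivOfCardEq (hF.trans hF'.symm)⟩
  have hmk : ∀ (g : Cfsg.SU 3 F 4) (k : ℕ), g ^ k = 1 →
      (QuotientGroup.mk g : Cfsg.PSU 3 F 4) ^ k = 1 := by
    intro g k hk
    rw [← QuotientGroup.mk_pow, hk]
    rfl
  have hmk' : ∀ (g : Cfsg.SU 3 F 4) (k : ℕ), g ^ k ∉ Subgroup.center (Cfsg.SU 3 F 4) →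
      (QuotientGroup.mk g : Cfsg.PSU 3 F 4) ^ k ≠ 1 := by
    intro g k hk
    rw [← QuotientGroup.mk_pow, Ne, QuotientGroup.eq_one_iff]
    exact hk
  refine ⟨?_, ?_, ?_, ?_⟩
  · intro x
    obtain ⟨g, rfl⟩ := QuotientGroup.mk_surjective x
    have hg := gram_of_mem g.1 g.2
    have hg' : Gram ((g.1 : Matrix (Fin 3) (Fin 3) F).map σ) :=
      (gram_map_iff (σ : F →+* F') σ.injective _).mpr hg
    have hd' : ((g.1 : Matrix (Fin 3) (Fin 3) F).map σ).det = 1 := by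
      have h := RingHom.map_det (σ : F →+* F') (g.1 : Matrix (Fin 3) (Fin 3) F)
      have h2 : (g.1 : Matrix (Fin 3) (Fin 3) F).det = 1 := g.1.2
      rw [h2, map_one] at h
      exact h.symm
    rcases h1 _ hg' hd' with h | h | h | h
    · exact Or.inl (hmk g 4 (su_pow_eq_one σ g 4 h))
    · exact Or.inr (Or.inl (hmk g 10 (su_pow_eq_one σ g 10 h)))
    · exact Or.inr (Or.inr (Or.inl (hmk g 13 (su_pow_eq_one σ g 13 h))))
    · exact Or.inr (Or.inr (Or.inr (hmk g 15 (su_pow_eq_one σ g 15 h))))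
  · obtain ⟨M', N', hM', hdM, hN', hdN, hp, hc2, hc5⟩ := h10
    obtain ⟨g, hpow, hcen⟩ := exists_su_pair σ M' N' hM' hdM hN' hdN
    exact ⟨QuotientGroup.mk g, orderOf_eq_ten _ (hmk g 10 (hpow 10 hp)) (hmk' g 2 (hcen 2 hc2))
      (hmk' g 5 (hcen 5 hc5))⟩
  · obtain ⟨M', N', hM', hdM, hN', hdN, hp, hc3, hc5⟩ := h15
    obtain ⟨g, hpow, hcen⟩ := exists_su_pair σ M' N' hM' hdM hN' hdN
    exact ⟨QuotientGroup.mk g, orderOf_eq_fifteen _ (hmk g 15 (hpow 15 hp)) (hmk' g 3 (hcen 3 hc3))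
      (hmk' g 5 (hcen 5 hc5))⟩
  · obtain ⟨M', N', hM', hdM, hN', hdN, hp, hc1⟩ := h13
    obtain ⟨g, hpow, hcen⟩ := exists_su_pair σ M' N' hM' hdM hN' hdN
    have : Fact (Nat.Prime 13) := ⟨by norm_num⟩
    refine ⟨QuotientGroup.mk g, orderOf_eq_prime (hmk g 13 (hpow 13 hp)) ?_⟩
    have h := hmk' g 1 (hcen 1 (by rw [pow_one]; exact hc1))
    rw [pow_one] at h
    exact h

end Cfsg.Agent.Lib.Helper37.U34B
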